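import Cfsg.Agent.H350.Tri.Defs
import Cfsg.Agent.H46.MSChev
import Cfsg.Agent.H140.Tri.A2
import Cfsg.Agent.S1048

/-!
# S2187, row TRI: the subsystem `A₂` of `D₄` (TRI-5a, helper474)

`exists_Psi` : an embedding `SL₃(k) → D₄(k)` with `E_{ij}(t) ↦ x_{s(i,j)}(± t)`, the roots `s(i,j)` being
`± α₀, ± α₁, ± (α₀ + α₁)`; `compY_A2` : TRI-5b (with `Cfsg.Agent.H140.Tri.compY_A2_of_exists`).
-/

set_option autoImplicit false

namespace Cfsg.Agent.H474.Tri

open Matrix Subgroup Cfsg Cfsg.Lie Cfsg.Agent.ChevalleyStructure.Elts Cfsg.Agent.Tits.Roots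
  Cfsg.Agent.Nodes.RGDChev
open Cfsg.Agent.H46.MS (rt)
open scoped commutatorElement

universe u

/-- the root of `chevD4` with vector `e_i - e_j` in the standard subsystem `A₂` -/
abbrev rr (i j : Fin 3) : ℕ := rt chevD4 18 14 19 i j

/-- the signs -/
def sg (i j : Fin 3) : ℤ := if (i = 0 ∧ j = 2) ∨ (i = 2 ∧ j = 0) then -1 else 1

theorem rr_lt : ∀ i j : Fin 3, i ≠ j → rr i j < chevD4.nroots := by decide +kernel

theorem rr_neg : ∀ i j : Fin 3, i ≠ j → chevD4.neg (rr i j) = rr j i := by decide +kernel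

theorem rr_comm : ∀ i j k l : Fin 3, (i ≠ j ∧ k ≠ l ∧ j ≠ k ∧ i ≠ l) → rr i j = rr k l ∨
    (rr k l ≠ rr i j ∧ rr k l ≠ chevD4.neg (rr i j) ∧ chevD4.commTerms (rr i j) (rr k l) = []) := by
  decide +kernel

theorem rr_br : ∀ i j k : Fin 3, (i ≠ j ∧ j ≠ k ∧ i ≠ k) → rr j k ≠ rr i j ∧
    rr j k ≠ chevD4.neg (rr i j) ∧
      chevD4.commTerms (rr i j) (rr j k) = [(rr i k, sg i j * sg j k * sg i k, 1, 1)] := by
  decide +kernel

theorem sg_symm : ∀ i j : Fin 3, sg i j = sg j i := by decide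

theorem sg_sq : ∀ i j : Fin 3, sg i j * sg i j = 1 := by decide

theorem sg_cases : ∀ i j : Fin 3, sg i j = 1 ∨ sg i j = -1 := by decide

theorem rr_vec : ∀ i j : Fin 3, i ≠ j → vec chevD4 4 (rr i j) =
    (![![0, sr 0, sr 0 + sr 1], ![-sr 0, 0, sr 1], ![-(sr 0 + sr 1), -sr 1, 0]] : Fin 3 → Fin 3 → (Fin 4 → ℤ)) i j := by
  decide +kernel

section

variable {k : Type u} [Field k]

theorem hD4 : InList chevD4 := Cfsg.Agent.Nodes.RGDTwD4.hp.inList

/-- the root elements -/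
noncomputable def rx (i j : Fin 3) (t : k) : GL chevD4.Idx k := xG hD4 (rr i j) ((sg i j : k) * t)

theorem sg_sq' (i j : Fin 3) : ((sg i j : ℤ) : k) * (sg i j : k) = 1 := by
  rw [← Int.cast_mul, sg_sq, Int.cast_one]

theorem rx_stein : AGraded.SteinRel (rx (k := k)) := by
  have hcom : ∀ i j k' l : Fin 3, i ≠ j → k' ≠ l → j ≠ k' → i ≠ l → ∀ s t : k,
      rx i j s * rx k' l t = rx k' l t * rx i j s := by
    intro i j k' l hij hkl hjk hil s t
    unfold rx
    rcases rr_comm i j k' l ⟨hij, hkl, hjk, hil⟩ with e | ⟨h1, h2, h3⟩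
    · rw [e, xG_add, xG_add, add_comm]
    · have key := S1025.result (F := k) chevD4 hD4 _ _ (rr_lt i j hij) (rr_lt k' l hkl) h1 h2 (sg i j * s) (sg k' l * t)
      rw [ChevalleyDatum.commWord, h3] at key
      apply Units.ext
      change chevD4.x k (rr i j) (sg i j * s) * chevD4.x k (rr k' l) (sg k' l * t) =
        chevD4.x k (rr k' l) (sg k' l * t) * chevD4.x k (rr i j) (sg i j * s)
      rw [key]
      simp [ChevalleyDatum.wordMat]
  refine ⟨?_, hcom, ?_⟩
  · intro i j _ s t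
    unfold rx
    rw [xG_add, mul_add]
  · intro i j l hij hjl hil s t
    obtain ⟨h1, h2, h3⟩ := rr_br i j l ⟨hij, hjl, hil⟩
    have key := S1025.result (F := k) chevD4 hD4 _ _ (rr_lt i j hij) (rr_lt j l hjl) h1 h2 (sg i j * s) (sg j l * t)
    have e0 : (((sg i j * sg j l * sg i l : ℤ) : ℤ) : k) * (-((sg i j : k) * s)) ^ 1 * ((sg j l : k) * t) ^ 1 =
        (sg i l : k) * (-(s * t)) := by
      push_cast
      linear_combination (-(sg i l : k) * (sg j l : k) * (sg j l : k) * s * t) * sg_sq' (k := k) i j +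
        (-(sg i l : k) * s * t) * sg_sq' (k := k) j l
    have hz : chevD4.wordMat k (chevD4.commWord k (rr i j) (rr j l) (sg i j * s) (sg j l * t)) =
        chevD4.x k (rr i l) ((sg i l : k) * (-(s * t))) := by
      rw [ChevalleyDatum.commWord, h3, List.map_cons, List.map_nil, ← e0]
      simp [ChevalleyDatum.wordMat]
    rw [hz] at key
    have key' : rx j l t * rx i j s = rx i j s * rx j l t * rx i l (-(s * t)) := by
      apply Units.ext
      exact key
    have hinv : ∀ u : k, rx i l (-u) = (rx i l u)⁻¹ := by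
      intro u
      unfold rx
      rw [xG_inv, mul_neg]
    rw [hinv] at key'
    have c1 := hcom i j i l hij hil (Ne.symm hij) hil s (s * t)
    have c2 := hcom j l i l hjl hil (Ne.symm hil) hjl t (s * t)
    rw [commutatorElement_def]
    have e1 : rx i j s * rx j l t = rx j l t * rx i j s * rx i l (s * t) := by
      rw [key']; group
    rw [e1, mul_assoc (rx j l t), c1, ← mul_assoc, c2]
    group

theorem hG_mul {r : ℕ} (hr : r < chevD4.nroots) {s t : k} (hs : s ≠ 0) (ht : t ≠ 0) :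
    hG hD4 r s * hG hD4 r t = hG hD4 r (s * t) := by
  apply Units.ext
  rw [Units.val_mul, coe_hG, coe_hG, coe_hG]
  exact S1076.result chevD4 hD4 _ hr _ _ hs ht

theorem rx_w {i j : Fin 3} (hij : i ≠ j) (u : k) :
    CTFrame.Weyl.w (rx (k := k)) i j u = nG hD4 (rr i j) ((sg i j : k) * u) := by
  unfold CTFrame.Weyl.w rx
  have h1 : ((sg i j : k))⁻¹ = sg i j := inv_eq_of_mul_eq_one_left (sg_sq' i j)
  rw [nG_def, rr_neg i j hij, sg_symm j i, mul_assoc, mul_inv, h1, mul_neg]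

theorem rx_t {i j : Fin 3} (hij : i ≠ j) {u : k} (hu : u ≠ 0) :
    CTFrame.Weyl.t (rx (k := k)) i j u = hG hD4 (rr i j) u := by
  unfold CTFrame.Weyl.t
  rw [rx_w hij, rx_w hij]
  have hr := rr_lt i j hij
  rcases sg_cases i j with h | h
  · rw [h, Int.cast_one, one_mul, one_mul, hG_def]
  · rw [h, Int.cast_neg, Int.cast_one, neg_one_mul, neg_one_mul, neg_neg]
    have hn : nG hD4 (rr i j) (1 : k) * nG hD4 (rr i j) (-1) = 1 := by
      rw [← hG_def]
      have h1 := hG_mul (k := k) hr one_ne_zero one_ne_zero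
      rw [mul_one] at h1
      exact mul_eq_left.1 h1
    have h2 : hG hD4 (rr i j) (-u) * hG hD4 (rr i j) (-1) = hG hD4 (rr i j) u := by
      rw [hG_mul hr (neg_ne_zero.2 hu) (neg_ne_zero.2 one_ne_zero), neg_mul_neg, mul_one]
    have h3 : hG hD4 (rr i j) (-1 : k) * hG hD4 (rr i j) (-1) = 1 := by
      rw [hG_mul hr (neg_ne_zero.2 one_ne_zero) (neg_ne_zero.2 one_ne_zero), neg_mul_neg, mul_one, hG_def, hn]
    have h4 : nG hD4 (rr i j) (-1 : k) * nG hD4 (rr i j) (-1) = hG hD4 (rr i j) (-1 : k) := by rw [← hG_def]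
    have h5 : nG hD4 (rr i j) (1 : k) = (nG hD4 (rr i j) (-1))⁻¹ := eq_inv_of_mul_eq_one_left hn
    rw [← h2, hG_def (r := rr i j) (t := -u), mul_assoc, h5]
    congr 1
    rw [inv_eq_iff_mul_eq_one, ← mul_assoc, h4, h3]

theorem rx_h : CTFrame.Torus.HRel (rx (k := k)) := by
  intro i j hij s t hs ht
  rw [rx_t hij hs, rx_t hij ht, rx_t hij (mul_ne_zero hs ht)]
  exact hG_mul (rr_lt i j hij) hs ht

/-! ### the kernel -/

theorem tv_coe {i j : Fin 3} (hij : i ≠ j) (u : k) :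
    (SpecialLinearGroup.transvection hij u : Matrix.SpecialLinearGroup (Fin 3) k).1 = Matrix.transvection i j u := rfl

theorem mul_coe (A B : Matrix.SpecialLinearGroup (Fin 3) k) : (A * B).1 = A.1 * B.1 := rfl

theorem w01 {u : k} (hu : u ≠ 0) :
    (SpecialLinearGroup.transvection (show (0 : Fin 3) ≠ 1 by decide) u *
      SpecialLinearGroup.transvection (show (1 : Fin 3) ≠ 0 by decide) (-u⁻¹) *
      SpecialLinearGroup.transvection (show (0 : Fin 3) ≠ 1 by decide) u : Matrix.SpecialLinearGroup (Fin 3) k).1 = !![0, u, 0; -u⁻¹, 0, 0; 0, 0, 1] := by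
  rw [mul_coe, mul_coe, tv_coe, tv_coe]
  ext i j
  fin_cases i <;> fin_cases j <;>
    simp [Matrix.transvection, Matrix.mul_apply, Fin.sum_univ_three, Matrix.single, Matrix.one_apply, hu]

theorem w12 {u : k} (hu : u ≠ 0) :
    (SpecialLinearGroup.transvection (show (1 : Fin 3) ≠ 2 by decide) u *
      SpecialLinearGroup.transvection (show (2 : Fin 3) ≠ 1 by decide) (-u⁻¹) *
      SpecialLinearGroup.transvection (show (1 : Fin 3) ≠ 2 by decide) u : Matrix.SpecialLinearGroup (Fin 3) k).1 = !![1, 0, 0; 0, 0, u; 0, -u⁻¹, 0] := by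
  rw [mul_coe, mul_coe, tv_coe, tv_coe]
  ext i j
  fin_cases i <;> fin_cases j <;>
    simp [Matrix.transvection, Matrix.mul_apply, Fin.sum_univ_three, Matrix.single, Matrix.one_apply, hu]

/-- **TRI-5a: the embedding `SL₃(k) → D₄(k)` of the standard subsystem `A₂`** -/
theorem exists_Psi (k : Type u) [Field k] : ∃ Ψ : Matrix.SpecialLinearGroup (Fin 3) k →* ↥(chevD4.group k),
    Function.Injective Ψ ∧ ∀ (i j : Fin 3) (hij : i ≠ j), ∃ s < chevD4.nroots, ∃ ε : k, ε ^ 2 = 1 ∧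
      vec chevD4 4 s = (![![0, sr 0, sr 0 + sr 1], ![-sr 0, 0, sr 1], ![-(sr 0 + sr 1), -sr 1, 0]] : Fin 3 → Fin 3 → (Fin 4 → ℤ)) i j ∧
      ∀ t : k, Ψ ⟨Matrix.transvection i j t, by simp [hij]⟩ =
        Cfsg.Agent.H469.Exc.SigFr.xs Cfsg.Agent.Nodes.RGDTwD4.hp.inList s (ε * t) := by
  obtain ⟨π, h1, h2, h3⟩ := CTFrame.Hom.exists_hom (rx_stein (k := k)) rx_h (by simp)
  have hle : π.range ≤ chevD4.group k := by
    rw [h2, Subgroup.closure_le]
    rintro _ ⟨i, j, -, t, rfl⟩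
    exact xG_mem_group hD4 _ _
  have hker : π.ker ≤ Subgroup.center (Matrix.SpecialLinearGroup (Fin 3) k) := by
    refine h3 ⟨0, 1, by decide, 1, ?_⟩
    unfold rx
    rw [Ne, xG_eq_one_iff hD4 (rr_lt 0 1 (by decide))]
    rcases sg_cases 0 1 with h | h <;> rw [h] <;> simp
  refine ⟨π.codRestrict _ fun g => hle ⟨g, rfl⟩, ?_, fun i j hij => ⟨rr i j, rr_lt i j hij, sg i j, ?_, rr_vec i j hij,
    fun t => Subtype.ext (h1 i j hij t)⟩⟩
  · rw [injective_iff_map_eq_one]
    intro z hz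
    have hz' : π z = 1 := congrArg Subtype.val hz
    obtain ⟨c, hc, hcz⟩ := Matrix.SpecialLinearGroup.mem_center_iff.1 (hker (show z ∈ π.ker from hz'))
    rw [Fintype.card_fin] at hc
    have hc0 : c ≠ 0 := by
      rintro rfl
      norm_num at hc
    have hw : ∀ {i j : Fin 3} (hij : i ≠ j) (u : k), π (SpecialLinearGroup.transvection hij u *
        SpecialLinearGroup.transvection hij.symm (-u⁻¹) * SpecialLinearGroup.transvection hij u) =
        CTFrame.Weyl.w (rx (k := k)) i j u := by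
      intro i j hij u
      rw [map_mul, map_mul, h1, h1]
      rfl
    have hm1 : (-1 : k) ≠ 0 := neg_ne_zero.2 one_ne_zero
    have hc2 : c ^ 2 ≠ 0 := pow_ne_zero 2 hc0
    have e : z = (SpecialLinearGroup.transvection (show (0 : Fin 3) ≠ 1 by decide) c *
          SpecialLinearGroup.transvection (show (1 : Fin 3) ≠ 0 by decide) (-c⁻¹) *
          SpecialLinearGroup.transvection (show (0 : Fin 3) ≠ 1 by decide) c) *
        (SpecialLinearGroup.transvection (show (0 : Fin 3) ≠ 1 by decide) (-1) *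
          SpecialLinearGroup.transvection (show (1 : Fin 3) ≠ 0 by decide) (-(-1)⁻¹) *
          SpecialLinearGroup.transvection (show (0 : Fin 3) ≠ 1 by decide) (-1)) *
        ((SpecialLinearGroup.transvection (show (1 : Fin 3) ≠ 2 by decide) (c ^ 2) *
          SpecialLinearGroup.transvection (show (2 : Fin 3) ≠ 1 by decide) (-(c ^ 2)⁻¹) *
          SpecialLinearGroup.transvection (show (1 : Fin 3) ≠ 2 by decide) (c ^ 2)) *
        (SpecialLinearGroup.transvection (show (1 : Fin 3) ≠ 2 by decide) (-1) *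
          SpecialLinearGroup.transvection (show (2 : Fin 3) ≠ 1 by decide) (-(-1)⁻¹) *
          SpecialLinearGroup.transvection (show (1 : Fin 3) ≠ 2 by decide) (-1))) := by
      apply Subtype.ext
      rw [mul_coe, mul_coe (_ * _ * _) (_ * _ * _), mul_coe (_ * _ * _) (_ * _ * _), w01 hc0, w01 hm1,
        w12 hc2, w12 hm1, ← hcz]
      have hi : (c ^ 2)⁻¹ = c := inv_eq_of_mul_eq_one_right (by rw [← pow_succ, hc])
      have hi' : c⁻¹ * c ^ 2 = c := by
        rw [pow_two, inv_mul_cancel_left₀ hc0]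
      ext i j
      fin_cases i <;> fin_cases j <;>
        simp [Matrix.mul_apply, Fin.sum_univ_three, Matrix.scalar, hi, hi']
    have key : hG hD4 (chevD4.simple 0) c * hG hD4 (chevD4.simple 1) (c ^ 2) = 1 := by
      have hh : ∀ A B C D : Matrix.SpecialLinearGroup (Fin 3) k, π (A * B * (C * D)) = π A * π B * (π C * π D) := by
        intro A B C D
        simp only [map_mul]
      rw [← hz', e, hh, hw, hw, hw, hw]
      have a1 := rx_t (k := k) (i := 0) (j := 1) (by decide) hc0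
      have a2 := rx_t (k := k) (i := 1) (j := 2) (by decide) hc2
      unfold CTFrame.Weyl.t at a1 a2
      rw [a1, a2]
      rfl
    have hs : (13 : ℕ) < chevD4.nroots := by decide +kernel
    have b1 := S1048.hG_conj hD4 (D := chevD4) (i := 0) (by decide +kernel) hs hc0 1
    have b2 := S1048.hG_conj hD4 (D := chevD4) (i := 1) (by decide +kernel) hs hc2 1
    have d1 : chevD4.cartan 0 13 = 0 := by decide +kernel
    have d2 : chevD4.cartan 1 13 = -1 := by decide +kernel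
    have b1' := S1048.hG_conj hD4 (D := chevD4) (i := 0) (by decide +kernel) hs hc0 ((c ^ 2) ^ (-1 : ℤ))
    rw [d1, zpow_zero, one_mul] at b1'
    rw [d2, mul_one] at b2
    have b3 : (hG hD4 (chevD4.simple 0) c * hG hD4 (chevD4.simple 1) (c ^ 2)) * xG hD4 13 1 *
        (hG hD4 (chevD4.simple 0) c * hG hD4 (chevD4.simple 1) (c ^ 2))⁻¹ = xG hD4 13 ((c ^ 2) ^ (-1 : ℤ)) := by
      rw [← b1', ← b2]
      group
    rw [key, one_mul, inv_one, mul_one] at b3
    have b4 := xG_injective hD4 hs b3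
    have hc1 : c = 1 := by
      have : (c ^ 2) ^ (-1 : ℤ) = c := by
        rw [_root_.zpow_neg_one]
        exact inv_eq_of_mul_eq_one_right (by rw [← pow_succ, hc])
      rw [this] at b4
      exact b4.symm
    subst hc1
    apply Subtype.ext
    rw [← hcz]
    simp
  · rw [pow_two, sg_sq']

end

section

open Cfsg.Agent.ChevalleyStructure.CoxeterGeom Cfsg.Agent.ChevalleyStructure.CoxeterGeomTypes
open Cfsg.Agent.Tits.Core Cfsg.Agent.Nodes Cfsg.Agent.Nodes.Reps Cfsg.Agent.Nodes.BNOf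
open Cfsg.Agent.KFacts.RgdField Cfsg.Agent.KFacts.RgdChevCoord
open Cfsg.Agent.BpExc Cfsg.Agent.BpExc.Fr Cfsg.Agent.BpExc.LangFr
open Cfsg.Agent.H469.Exc Cfsg.Agent.H818.Gen Cfsg.Agent.H350.Tri

/-- **TRI-5b** -/
theorem compY_A2 {r : ℕ} [hrf : Fact r.Prime] (hr5 : 5 ≤ r)
    (hSL : ∀ (F : Type) [Field F] [Fintype F] [CharP F r], Gen 3 (Matrix.SpecialLinearGroup (Fin 3) F))
    (hSU : ∀ (F : Type) [Field F] [Fintype F] [CharP F r] (q : ℕ), Fintype.card F = q ^ 2 → Gen 3 ↥(SU 3 F q))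
    {e : ℕ} (he : 0 < e) {τ : MulAut (Y4 r)} (hτ : IsFrob r e τ) {g : (Fin 4 → ℤ) ≃+ (Fin 4 → ℤ)}
    (F : Fr coxeterD4.toCoxeterSystem Cfsg.Agent.Nodes.RGDTwD4.hp.isCartan (TT chevD4 (KK r)) (XX chevD4 4 (KK r)) τ g)
    (hg : ∀ a ∈ A2std, g a ∈ A2std) (hpos : ∀ a ∈ A2std, 0 ≤ a → 0 ≤ g a) : CompY τ A2std :=
  Cfsg.Agent.H140.Tri.compY_A2_of_exists (exists_Psi (KK r)) hr5 hSL hSU he hτ F hg hpos

end

end Cfsg.Agent.H474.Tri
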